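import Mathlib
import Cfsg.Prelude.Def_Solvable
import Cfsg.Prelude.Def_Transfer

/-!
Large extraspecial 2-subgroups: elementwise facts used for singular involutions.
-/

set_option autoImplicit false

namespace CfsgLib.SingInv

open Cfsg
open scoped commutatorElement

variable {G : Type*} [Group G]

/-- Elementwise form of "`Q` is an extraspecial 2-group with centre `⟨u⟩`, self-centralizing in `G`". -/
structure ES (Q : Subgroup G) (u : G) : Prop where
  mem : u ∈ Q
  ne : u ≠ 1
  sq : u * u = 1
  ucomm : ∀ a ∈ Q, a * u = u * a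
  comm : ∀ a ∈ Q, ∀ b ∈ Q, a * b = b * a ∨ a * b = b * a * u
  cent : ∀ a : G, (∀ b ∈ Q, a * b = b * a) → a = 1 ∨ a = u

theorem ES.conj_cases {Q : Subgroup G} {u : G} (h : ES Q u) {a b : G} (ha : a ∈ Q) (hb : b ∈ Q) :
    a * b * a⁻¹ = b ∨ a * b * a⁻¹ = b * u := by
  rcases h.comm a ha b hb with h1 | h1
  · left; rw [h1]; group
  · right
    rw [h1]
    calc b * a * u * a⁻¹ = b * (a * u) * a⁻¹ := by group
      _ = b * (u * a) * a⁻¹ := by rw [h.ucomm a ha]
      _ = b * u := by group

theorem ES.conj_of_not_comm {Q : Subgroup G} {u : G} (h : ES Q u) {a b : G} (ha : a ∈ Q)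
    (hb : b ∈ Q) (hn : a * b ≠ b * a) : a * b * a⁻¹ = b * u := by
  rcases h.conj_cases ha hb with h1 | h1
  · exfalso; apply hn
    calc a * b = a * b * a⁻¹ * a := by group
      _ = b * a := by rw [h1]
  · exact h1

/-- Two elements not commuting with `b` have a product commuting with `b`. -/
theorem ES.mul_comm_of_not_comm {Q : Subgroup G} {u : G} (h : ES Q u) {a c b : G} (ha : a ∈ Q)
    (hc : c ∈ Q) (hb : b ∈ Q) (hn : a * b ≠ b * a) (hn' : c * b ≠ b * c) :
    (a * c) * b = b * (a * c) := by
  have h1 := h.conj_of_not_comm ha hb hn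
  have h2 := h.conj_of_not_comm hc hb hn'
  have h3 : a * u * a⁻¹ = u := by rw [h.ucomm a ha]; group
  calc (a * c) * b = a * (c * b * c⁻¹) * a⁻¹ * (a * c) := by group
    _ = (a * b * a⁻¹) * (a * u * a⁻¹) * (a * c) := by rw [h2]; group
    _ = b * (u * u) * (a * c) := by rw [h1, h3]; group
    _ = b * (a * c) := by rw [h.sq, mul_one]

theorem ES.sq_cases {Q : Subgroup G} {u : G} (h : ES Q u) {a : G} (ha : a ∈ Q) :
    a * a = 1 ∨ a * a = u := by
  apply h.cent
  intro b hb
  by_cases hn : a * b = b * a
  · calc a * a * b = a * (a * b) := by group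
      _ = a * (b * a) := by rw [hn]
      _ = (a * b) * a := by group
      _ = b * (a * a) := by rw [hn]; group
  · exact h.mul_comm_of_not_comm ha ha hb hn hn

/-- The double centralizer lemma in an extraspecial group. -/
theorem ES.double_cent {Q : Subgroup G} {u : G} (h : ES Q u) (W : Set G) (hW : W.Finite) :
    (∀ w ∈ W, w ∈ Q) → ∀ a ∈ Q, (∀ q ∈ Q, (∀ w ∈ W, q * w = w * q) → q * a = a * q) →
      a ∈ Subgroup.closure (insert u W) := by
  induction W, hW using Set.Finite.induction_on with
  | empty =>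
    intro _ a _ hq
    rcases h.cent a (fun b hb => (hq b hb (by simp)).symm) with h1 | h1
    · rw [h1]; exact one_mem _
    · rw [h1]; exact Subgroup.subset_closure (by simp)
  | @insert w W _ _ ih =>
    intro hWQ a ha hq
    have hw : w ∈ Q := hWQ w (by simp)
    have hWQ' : ∀ v ∈ W, v ∈ Q := fun v hv => hWQ v (by simp [hv])
    have hmono : Subgroup.closure (insert u W) ≤ Subgroup.closure (insert u (insert w W)) :=
      Subgroup.closure_mono (by intro v hv; simp at hv ⊢; tauto)
    by_cases hall : ∀ q ∈ Q, (∀ v ∈ W, q * v = v * q) → q * a = a * q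
    · exact hmono (ih hWQ' a ha hall)
    · push Not at hall
      obtain ⟨q₀, hq₀, hq₀W, hq₀a⟩ := hall
      have hq₀w : q₀ * w ≠ w * q₀ := by
        intro h1
        apply hq₀a
        apply hq q₀ hq₀
        intro v hv
        rcases hv with rfl | hv
        · exact h1
        · exact hq₀W v hv
      have key : a * w ∈ Subgroup.closure (insert u W) := by
        apply ih hWQ' (a * w) (mul_mem ha hw)
        intro q hqQ hqW
        by_cases hqw : q * w = w * q
        · have hqa : q * a = a * q := by
            apply hq q hqQ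
            intro v hv
            rcases hv with rfl | hv
            · exact hqw
            · exact hqW v hv
          calc q * (a * w) = (q * a) * w := by group
            _ = a * (q * w) := by rw [hqa]; group
            _ = a * w * q := by rw [hqw]; group
        · have h1 : (q₀ * q) * w = w * (q₀ * q) := h.mul_comm_of_not_comm hq₀ hqQ hw hq₀w hqw
          have h2 : (q₀ * q) * a = a * (q₀ * q) := by
            apply hq _ (mul_mem hq₀ hqQ)
            intro v hv
            rcases hv with rfl | hv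
            · exact h1
            · calc q₀ * q * v = q₀ * (q * v) := by group
                _ = (q₀ * v) * q := by rw [hqW v hv]; group
                _ = v * (q₀ * q) := by rw [hq₀W v hv]; group
          have hqa : q * a ≠ a * q := by
            intro h3
            apply hq₀a
            have : q₀ * a * q = a * q₀ * q := by
              calc q₀ * a * q = q₀ * (a * q) := by group
                _ = q₀ * q * a := by rw [← h3]; group
                _ = a * q₀ * q := by rw [h2]; group
            exact mul_right_cancel this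
          exact (h.mul_comm_of_not_comm ha hw hqQ (fun h' => hqa h'.symm)
            (fun h' => hqw h'.symm)).symm
      have hwm : w ∈ Subgroup.closure (insert u (insert w W)) :=
        Subgroup.subset_closure (by simp)
      have := mul_mem (hmono key) (inv_mem hwm)
      simpa using this

/-- Existence form: an element outside `⟨u, W⟩` is moved by some element centralizing `W`. -/
theorem ES.exists_conj {Q : Subgroup G} {u : G} (h : ES Q u) (W : Set G) (hW : W.Finite)
    (hWQ : ∀ w ∈ W, w ∈ Q) {a : G} (ha : a ∈ Q) (hn : a ∉ Subgroup.closure (insert u W)) :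
    ∃ q ∈ Q, (∀ w ∈ W, q * w = w * q) ∧ q * a * q⁻¹ = a * u := by
  by_contra hc
  apply hn
  apply h.double_cent W hW hWQ a ha
  intro q hq hqW
  by_contra h1
  exact hc ⟨q, hq, hqW, h.conj_of_not_comm hq ha h1⟩

theorem pCore_map_le {H K : Type*} [Group H] [Group K] (p : ℕ) (e : H ≃* K) :
    (pCore p H).map e.toMonoidHom ≤ pCore p K := by
  unfold pCore
  rw [Subgroup.map_le_iff_le_comap]
  apply sSup_le
  rintro N ⟨hN, hp⟩
  rw [← Subgroup.map_le_iff_le_comap]
  apply le_sSup
  exact ⟨hN.map _ e.surjective, hp.map _⟩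

/-- Conjugation as an isomorphism between centralizers of elements. -/
def centConj (g x : G) :
    Subgroup.centralizer ({x} : Set G) ≃* Subgroup.centralizer ({g * x * g⁻¹} : Set G) where
  toFun a := ⟨g * a * g⁻¹, by
    have ha := a.2
    rw [Subgroup.mem_centralizer_singleton_iff] at ha ⊢
    calc g * a * g⁻¹ * (g * x * g⁻¹) = g * (a * x) * g⁻¹ := by group
      _ = g * x * g⁻¹ * (g * a * g⁻¹) := by rw [ha]; group⟩
  invFun a := ⟨g⁻¹ * a * g, by
    have ha := a.2
    rw [Subgroup.mem_centralizer_singleton_iff] at ha ⊢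
    calc g⁻¹ * a * g * x = g⁻¹ * (a * (g * x * g⁻¹)) * g := by group
      _ = x * (g⁻¹ * a * g) := by rw [ha]; group⟩
  left_inv a := by ext; simp only; group
  right_inv a := by ext; simp only; group
  map_mul' a b := by ext; simp only [Subgroup.coe_mul]; group

section Q

variable (Q : G → Subgroup G)
  (hQ : ∀ x : G, Q x = (pCore 2 ↥(Subgroup.centralizer ({x} : Set G))).map
    (Subgroup.centralizer ({x} : Set G)).subtype)

include hQ

theorem conj_mem_Q (g x : G) {y : G} (hy : y ∈ Q x) : g * y * g⁻¹ ∈ Q (g * x * g⁻¹) := by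
  rw [hQ] at hy ⊢
  obtain ⟨a, ha, rfl⟩ := hy
  exact ⟨centConj g x a, pCore_map_le 2 (centConj g x) ⟨a, ha, rfl⟩, rfl⟩

theorem comm_of_mem_Q {x y : G} (hy : y ∈ Q x) : y * x = x * y := by
  rw [hQ] at hy
  obtain ⟨a, -, rfl⟩ := hy
  exact Subgroup.mem_centralizer_singleton_iff.1 a.2

theorem conj_mem_Q_of_comm {x y h : G} (hh : h * x = x * h) (hy : y ∈ Q x) :
    h * y * h⁻¹ ∈ Q x := by
  have := conj_mem_Q Q hQ h x hy
  rwa [hh, mul_inv_cancel_right] at this

theorem es_base (z : G) (hz : orderOf z = 2) (hE : IsExtraspecial 2 ↥(Q z))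
    (hC : Subgroup.centralizer ((Q z : Subgroup G) : Set G) ≤ Q z) : ES (Q z) z := by
  have hz1 : z ≠ 1 := by rintro rfl; simp at hz
  have hz2 : z * z = 1 := by
    have := pow_orderOf_eq_one z
    rwa [hz, pow_two] at this
  have hzQ : z ∈ Q z := by
    apply hC
    rw [Subgroup.mem_centralizer_iff]
    intro y hy
    exact comm_of_mem_Q Q hQ hy
  have hzc : (⟨z, hzQ⟩ : Q z) ∈ Subgroup.center (Q z) := by
    rw [Subgroup.mem_center_iff]
    intro y
    exact Subtype.ext (comm_of_mem_Q Q hQ y.2)
  have hcen : ∀ c : Q z, c ∈ Subgroup.center (Q z) → (c : G) = 1 ∨ (c : G) = z := by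
    intro c hc
    obtain ⟨w, hw1, hw⟩ := (Nat.card_eq_two_iff' (1 : Subgroup.center (Q z))).1 hE.2
    have e1 : (⟨⟨z, hzQ⟩, hzc⟩ : Subgroup.center (Q z)) = w := by
      apply hw
      intro h
      exact hz1 (congrArg (fun t : Subgroup.center (Q z) => ((t : Q z) : G)) h)
    by_cases h1 : (⟨c, hc⟩ : Subgroup.center (Q z)) = 1
    · left; exact congrArg (fun t : Subgroup.center (Q z) => ((t : Q z) : G)) h1
    · right
      have e2 := hw _ h1
      rw [← e1] at e2
      exact congrArg (fun t : Subgroup.center (Q z) => ((t : Q z) : G)) e2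
  refine ⟨hzQ, hz1, hz2, fun a ha => comm_of_mem_Q Q hQ ha, ?_, ?_⟩
  · intro a ha b hb
    have hm : ⁅((⟨a, ha⟩ : Q z))⁻¹, ((⟨b, hb⟩ : Q z))⁻¹⁆ ∈ commutator (Q z) :=
      Subgroup.commutator_mem_commutator (Subgroup.mem_top _) (Subgroup.mem_top _)
    rw [hE.1.2.2] at hm
    have h1 := hcen _ hm
    have e : ((⁅((⟨a, ha⟩ : Q z))⁻¹, ((⟨b, hb⟩ : Q z))⁻¹⁆ : Q z) : G) = a⁻¹ * b⁻¹ * a * b := by
      simp [commutatorElement_def]
    rw [e] at h1
    rcases h1 with h1 | h1
    · left
      calc a * b = (b * a) * (a⁻¹ * b⁻¹ * a * b) := by group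
        _ = b * a := by rw [h1, mul_one]
    · right
      calc a * b = (b * a) * (a⁻¹ * b⁻¹ * a * b) := by group
        _ = b * a * z := by rw [h1]
  · intro a ha
    have haQ : a ∈ Q z := by
      apply hC
      rw [Subgroup.mem_centralizer_iff]
      intro y hy
      exact (ha y hy).symm
    apply hcen ⟨a, haQ⟩
    rw [Subgroup.mem_center_iff]
    intro y
    exact Subtype.ext (ha y y.2).symm

theorem es_conj {z : G} (h : ES (Q z) z) (g : G) : ES (Q (g * z * g⁻¹)) (g * z * g⁻¹) := by
  have back : ∀ a ∈ Q (g * z * g⁻¹), g⁻¹ * a * g ∈ Q z := by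
    intro a ha
    have := conj_mem_Q Q hQ g⁻¹ _ ha
    have e : g⁻¹ * (g * z * g⁻¹) * g⁻¹⁻¹ = z := by group
    rwa [e, inv_inv] at this
  refine ⟨conj_mem_Q Q hQ g z h.mem, ?_, ?_, fun a ha => comm_of_mem_Q Q hQ ha, ?_, ?_⟩
  · intro h1
    apply h.ne
    calc z = g⁻¹ * (g * z * g⁻¹) * g := by group
      _ = 1 := by rw [h1]; group
  · calc g * z * g⁻¹ * (g * z * g⁻¹) = g * (z * z) * g⁻¹ := by group
      _ = 1 := by rw [h.sq]; group
  · intro a ha b hb
    rcases h.comm _ (back a ha) _ (back b hb) with h1 | h1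
    · left
      calc a * b = g * (g⁻¹ * a * g * (g⁻¹ * b * g)) * g⁻¹ := by group
        _ = b * a := by rw [h1]; group
    · right
      calc a * b = g * (g⁻¹ * a * g * (g⁻¹ * b * g)) * g⁻¹ := by group
        _ = b * a * (g * z * g⁻¹) := by rw [h1]; group
  · intro a ha
    have := h.cent (g⁻¹ * a * g) (by
      intro b hb
      have h1 := ha _ (conj_mem_Q Q hQ g z hb)
      calc g⁻¹ * a * g * b = g⁻¹ * (a * (g * b * g⁻¹)) * g := by group
        _ = b * (g⁻¹ * a * g) := by rw [h1]; group)
    rcases this with h1 | h1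
    · left
      calc a = g * (g⁻¹ * a * g) * g⁻¹ := by group
        _ = 1 := by rw [h1]; group
    · right
      calc a = g * (g⁻¹ * a * g) * g⁻¹ := by group
        _ = g * z * g⁻¹ := by rw [h1]

end Q

end CfsgLib.SingInv
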